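import Cfsg.Agent.Lib.OddLocal.ZJ

/-!
Glauberman's `ZJ`-theorem for solvable groups of odd order: the remaining case and the conclusion.
-/

set_option autoImplicit false
set_option linter.unusedSectionVars false
set_option linter.style.haveILetI false

namespace Cfsg.Agent.Lib.OddLocal

open Subgroup Cfsg Cfsg.Agent.Lib.LocalEven

open scoped commutatorElement

universe u

variable {G : Type u} [Group G]

section main

variable [Finite G] [Group.IsSolvable G] {p : ℕ} [Fact p.Prime]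

/-- Case II: no member of `MaxEA` lies in `O_p`. -/
theorem zj_case_two (hp : p ≠ 2) (hodd : Odd (Nat.card G)) (hO : pPrimeCore p G = ⊥) (S : Sylow p G)
    (IH : ∀ K : Subgroup G, (S : Subgroup G) ≤ K → K ≠ ⊤ → K ≤ normalizer (centerThompsonOf p (S : Subgroup G) : Set G))
    (hno : ∀ A ∈ MaxEA p (S : Subgroup G), ¬ A ≤ pCore p G) :
    (centerThompsonOf p (S : Subgroup G)).Normal := by
  classical
  have hpp : p.Prime := Fact.out
  obtain ⟨hZc, hSN, hZS, hZT⟩ := centerThompson_props hp hodd hO S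
  set Z := centerThompsonOf p (S : Subgroup G) with hZ
  set T := pCore p G with hTdef
  haveI hTn : T.Normal := Basic.pCore_normal p
  have hTp : IsPGroup p T := Basic.pCore_isPGroup p
  have hTS : T ≤ (S : Subgroup G) := Basic.pCore_le_sylow S
  by_contra hZn
  set Hp := pResidual p G with hHp
  haveI hHpn : Hp.Normal := pResidual_normal p
  -- the normal closure
  let V : Subgroup G := closure {y | ∃ g : G, ∃ z ∈ Z, y = g * z * g⁻¹}
  have hZV : Z ≤ V := fun z hz => Subgroup.subset_closure ⟨1, z, hz, by simp⟩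
  haveI hVn : V.Normal := by
    refine ⟨fun n hn g => ?_⟩
    induction hn using Subgroup.closure_induction with
    | mem a ha =>
      obtain ⟨h, z, hz, rfl⟩ := ha
      exact Subgroup.subset_closure ⟨g * h, z, hz, by group⟩
    | one => simp
    | mul a b _ _ h1 h2 =>
      have : g * (a * b) * g⁻¹ = (g * a * g⁻¹) * (g * b * g⁻¹) := by group
      rw [this]
      exact Subgroup.mul_mem _ h1 h2
    | inv a _ h1 =>
      have : g * a⁻¹ * g⁻¹ = (g * a * g⁻¹)⁻¹ := by group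
      rw [this]
      exact Subgroup.inv_mem _ h1
  have hVT : V ≤ T := by
    rw [Subgroup.closure_le]
    rintro _ ⟨g, z, hz, rfl⟩
    exact hTn.conj_mem z (hZT hz) g
  have hVp : IsPGroup p V := hTp.to_le hVT
  -- not everything is centralized
  have hVc : ¬ Hp ≤ centralizer (V : Set G) := by
    intro h
    apply hZn
    apply normal_of_residual_le_centralizer S Z hSN
    exact h.trans (Subgroup.centralizer_le (hZV : (Z : Set G) ⊆ V))
  -- the minimal choice
  have hS : ({N : Subgroup G | N.Normal ∧ N ≤ V ∧ ¬ Hp ≤ centralizer (N : Set G)}).Nonempty :=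
    ⟨V, hVn, le_rfl, hVc⟩
  obtain ⟨N₁, ⟨hN₁n, hN₁V, hN₁c⟩, hmin⟩ := (Set.toFinite _).exists_minimal hS
  haveI hN₁n' : N₁.Normal := hN₁n
  have hN₁p : IsPGroup p N₁ := hVp.to_le hN₁V
  have hsmall : ∀ K : Subgroup G, K.Normal → K ≤ N₁ → K ≠ N₁ → Hp ≤ centralizer (K : Set G) := by
    intro K hK hKN hne
    by_contra hcon
    exact hne (le_antisymm hKN (hmin ⟨hK, hKN.trans hN₁V, hcon⟩ hKN))
  have hN₁b : N₁ ≠ ⊥ := by
    rintro rfl
    apply hN₁c
    intro x _
    refine Subgroup.mem_centralizer_iff.mpr ?_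
    intro y hy
    rw [SetLike.mem_coe, Subgroup.mem_bot] at hy
    rw [hy, one_mul, mul_one]
  -- `[N₁, H] = N₁`
  have hNH : ⁅N₁, Hp⁆ = N₁ := by
    by_contra hne
    have hle : ⁅N₁, Hp⁆ ≤ N₁ := Subgroup.commutator_le_left N₁ Hp
    have h1 := hsmall _ inferInstance hle hne
    apply hN₁c
    rw [hHp]
    delta pResidual
    rw [Subgroup.closure_le]
    intro y hy
    rw [SetLike.mem_coe, Subgroup.mem_centralizer_iff]
    intro x hx
    have hyres : y ∈ Hp := mem_pResidual_of_coprime hy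
    have hc : y * x * y⁻¹ * x⁻¹ ∈ ⁅N₁, Hp⁆ := by
      have h2 : ⁅x, y⁆ ∈ ⁅N₁, Hp⁆ := Subgroup.commutator_mem_commutator hx hyres
      have h3 : y * x * y⁻¹ * x⁻¹ = ⁅x, y⁆⁻¹ := by
        rw [commutatorElement_inv]
        rfl
      rw [h3]
      exact Subgroup.inv_mem _ h2
    have hfix : y * (y * x * y⁻¹ * x⁻¹) * y⁻¹ = y * x * y⁻¹ * x⁻¹ := by
      have := Subgroup.mem_centralizer_iff.mp (h1 hyres) _ hc
      rw [← this, mul_inv_cancel_right]
    have hcop : Nat.Coprime (orderOf y) (orderOf (y * x * y⁻¹ * x⁻¹)) := by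
      have hmem := hle hc
      obtain ⟨k, hk⟩ := hN₁p ⟨_, hmem⟩
      have h4 : (y * x * y⁻¹ * x⁻¹) ^ (p ^ k) = 1 := congrArg Subtype.val hk
      have h5 := orderOf_dvd_of_pow_eq_one h4
      exact Nat.Coprime.coprime_dvd_right h5 (Nat.Coprime.pow_right k hy)
    have h6 := Cfsg.Agent.Lib.OddLocal.conj_eq_of_commutator_fixed y x hfix hcop
    rw [mul_inv_eq_iff_eq_mul] at h6
    exact h6.symm
  -- three subgroups
  have hthree : ∀ K : Subgroup G, K.Normal → K ≤ N₁ → K ≠ N₁ → ⁅N₁, K⁆ = ⊥ := by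
    intro K hK hKN hne
    have h1 := hsmall K hK hKN hne
    haveI := hK
    have h2 : ⁅Hp, K⁆ = ⊥ := Subgroup.commutator_eq_bot_iff_le_centralizer.mpr h1
    have h3 : ⁅⁅Hp, K⁆, N₁⁆ = ⊥ := by
      rw [h2, Subgroup.commutator_bot_left]
    have h4 : ⁅⁅K, N₁⁆, Hp⁆ = ⊥ := by
      have h5 : ⁅K, N₁⁆ ≤ K := Subgroup.commutator_le_left K N₁
      rw [eq_bot_iff]
      calc ⁅⁅K, N₁⁆, Hp⁆ ≤ ⁅K, Hp⁆ := Subgroup.commutator_mono h5 le_rfl
        _ = ⁅Hp, K⁆ := Subgroup.commutator_comm _ _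
        _ = ⊥ := h2
    have h6 := Subgroup.commutator_commutator_eq_bot_of_rotate h3 h4
    rwa [hNH] at h6
  -- `U₁`
  set U₁ := ⁅N₁, V⁆ with hU₁
  haveI hU₁n : U₁.Normal := inferInstance
  have hU₁N : U₁ ≤ N₁ := Subgroup.commutator_le_left N₁ V
  have hU₁ne : U₁ ≠ N₁ := fun e => hN₁b (eq_bot_of_commutator_eq hVp hN₁V e)
  have hU₁c := hsmall U₁ hU₁n hU₁N hU₁ne
  have hNU : ⁅N₁, U₁⁆ = ⊥ := hthree U₁ hU₁n hU₁N hU₁ne
  -- factorization
  have hfac : ∀ g : G, ∃ h ∈ Hp, ∃ s ∈ (S : Subgroup G), g = h * s := by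
    intro g
    have hg : g ∈ Hp ⊔ (S : Subgroup G) := by
      rw [pResidual_sup_sylow (p := p) S]
      exact Subgroup.mem_top g
    obtain ⟨h, hh, s, hs, rfl⟩ := Subgroup.mem_sup_of_normal_left.mp hg
    exact ⟨h, hh, s, hs, rfl⟩
  -- `R`
  let R : Subgroup G := Z ⊓ U₁
  have hSZ : ∀ s ∈ (S : Subgroup G), ∀ z, z ∈ Z → s * z * s⁻¹ ∈ Z := fun s hs z hz =>
    (Subgroup.mem_normalizer_iff.mp (hSN hs) z).mp hz
  have hHU : ∀ h ∈ Hp, ∀ u ∈ U₁, h * u * h⁻¹ = u := by
    intro h hh u hu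
    have := Subgroup.mem_centralizer_iff.mp (hU₁c hh) u hu
    rw [← this, mul_inv_cancel_right]
  haveI hRn : R.Normal := by
    refine ⟨fun r hr g => ?_⟩
    obtain ⟨h, hh, s, hs, rfl⟩ := hfac g
    have h1 : s * r * s⁻¹ ∈ Z := hSZ s hs r hr.1
    have h2 : s * r * s⁻¹ ∈ U₁ := hU₁n.conj_mem r hr.2 s
    have h3 : (h * s) * r * (h * s)⁻¹ = h * (s * r * s⁻¹) * h⁻¹ := by group
    rw [h3, hHU h hh _ h2]
    exact ⟨h1, h2⟩
  -- commutators with conjugates of `Z`
  have hconjR : ∀ (g z : G), z ∈ Z → ∀ x ∈ N₁, ⁅g * z * g⁻¹, x⁆ ∈ R := by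
    intro g z hz x hx
    have hmemV : g * z * g⁻¹ ∈ V := Subgroup.subset_closure ⟨g, z, hz, rfl⟩
    have hu1 : ⁅g * z * g⁻¹, x⁆ ∈ U₁ := by
      rw [hU₁, Subgroup.commutator_comm]
      exact Subgroup.commutator_mem_commutator hmemV hx
    refine ⟨?_, hu1⟩
    set u := ⁅g * z * g⁻¹, x⁆ with hu
    obtain ⟨h, hh, s, hs, rfl⟩ := hfac g
    -- `u` is in the conjugate
    have hx' : (h * s)⁻¹ * x * (h * s) ∈ T := by
      have := hTn.conj_mem x (hVT (hN₁V hx)) (h * s)⁻¹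
      rwa [inv_inv] at this
    have h1 : (h * s)⁻¹ * u * (h * s) ∈ Z := by
      have h2 : (h * s)⁻¹ * u * (h * s) =
          z * (((h * s)⁻¹ * x * (h * s)) * z⁻¹ * ((h * s)⁻¹ * x * (h * s))⁻¹) := by
        rw [hu, commutatorElement_def]
        group
      rw [h2]
      exact Z.mul_mem hz (hSZ _ (hTS hx') _ (Z.inv_mem hz))
    have h3 : (h * s)⁻¹ * u * (h * s) = s⁻¹ * u * s := by
      have h4 := hHU h⁻¹ (Hp.inv_mem hh) u hu1
      rw [inv_inv] at h4
      calc (h * s)⁻¹ * u * (h * s) = s⁻¹ * (h⁻¹ * u * h) * s := by group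
        _ = s⁻¹ * u * s := by rw [h4]
    rw [h3] at h1
    have h5 := hSZ s hs _ h1
    have h6 : s * (s⁻¹ * u * s) * s⁻¹ = u := by group
    rwa [h6] at h5
  have hVR : ∀ v ∈ V, ∀ x ∈ N₁, ⁅v, x⁆ ∈ R := by
    intro v hv x hx
    induction hv using Subgroup.closure_induction with
    | mem a ha =>
      obtain ⟨g, z, hz, rfl⟩ := ha
      exact hconjR g z hz x hx
    | one =>
      rw [commutatorElement_one_left]
      exact R.one_mem
    | mul a b _ _ h1 h2 =>
      have : ⁅a * b, x⁆ = a * ⁅b, x⁆ * a⁻¹ * ⁅a, x⁆ := by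
        simp only [commutatorElement_def]
        group
      rw [this]
      exact R.mul_mem (hRn.conj_mem _ h2 a) h1
    | inv a _ h1 =>
      have : ⁅a⁻¹, x⁆ = a⁻¹ * ⁅a, x⁆⁻¹ * a⁻¹⁻¹ := by
        simp only [commutatorElement_def]
        group
      rw [this]
      exact hRn.conj_mem _ (R.inv_mem h1) _
  have hNZ : ∀ x ∈ N₁, ∀ y ∈ N₁, ⁅x, y⁆ ∈ Z := fun x hx y hy => (hVR x (hN₁V hx) y hy).1
  -- class at most two
  have hNU' : ∀ x ∈ N₁, ∀ u ∈ U₁, x * u = u * x := by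
    intro x hx u hu
    have h1 : ⁅x, u⁆ ∈ ⁅N₁, U₁⁆ := Subgroup.commutator_mem_commutator hx hu
    rw [hNU, Subgroup.mem_bot, commutatorElement_eq_one_iff_mul_comm] at h1
    exact h1
  have hNN : ⁅N₁, N₁⁆ ≤ U₁ := Subgroup.commutator_mono le_rfl hN₁V
  have hclass : ⁅⁅N₁, N₁⁆, N₁⁆ = ⊥ := by
    rw [eq_bot_iff]
    calc ⁅⁅N₁, N₁⁆, N₁⁆ ≤ ⁅U₁, N₁⁆ := Subgroup.commutator_mono hNN le_rfl
      _ = ⁅N₁, U₁⁆ := Subgroup.commutator_comm _ _
      _ = ⊥ := hNU
  -- `p`-th powers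
  let Φ₁ : Subgroup G := closure {y | ∃ x ∈ N₁, y = x ^ p}
  haveI hΦn : Φ₁.Normal := by
    refine ⟨fun n hn g => ?_⟩
    induction hn using Subgroup.closure_induction with
    | mem a ha =>
      obtain ⟨x, hx, rfl⟩ := ha
      refine Subgroup.subset_closure ⟨g * x * g⁻¹, hN₁n'.conj_mem x hx g, ?_⟩
      rw [conj_pow]
    | one => simp
    | mul a b _ _ h1 h2 =>
      have : g * (a * b) * g⁻¹ = (g * a * g⁻¹) * (g * b * g⁻¹) := by group
      rw [this]
      exact Subgroup.mul_mem _ h1 h2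
    | inv a _ h1 =>
      have : g * a⁻¹ * g⁻¹ = (g * a * g⁻¹)⁻¹ := by group
      rw [this]
      exact Subgroup.inv_mem _ h1
  have hΦN : Φ₁ ≤ N₁ := by
    rw [Subgroup.closure_le]
    rintro _ ⟨x, hx, rfl⟩
    exact N₁.pow_mem hx p
  have hΦne : Φ₁ ≠ N₁ := by
    intro e
    haveI hnt : Nontrivial N₁ := (Subgroup.nontrivial_iff_ne_bot N₁).mpr hN₁b
    obtain ⟨K, hKn, hKi⟩ := exists_normal_index_prime p hN₁p
    haveI := hKn
    have hsub : Φ₁ ≤ K.map N₁.subtype := by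
      rw [Subgroup.closure_le]
      rintro _ ⟨x, hx, rfl⟩
      exact ⟨(⟨x, hx⟩ : N₁) ^ p, (index_prime_mem p K hKi ⟨x, hx⟩ 1).1, rfl⟩
    have hK : K = ⊤ := by
      rw [eq_top_iff]
      rintro x -
      have h0 : (x : G) ∈ Φ₁ := by
        rw [e]
        exact x.2
      have h1 : (x : G) ∈ K.map N₁.subtype := hsub h0
      obtain ⟨y, hy, hyx⟩ := h1
      have : y = x := Subtype.ext hyx
      rwa [← this]
    rw [hK, Subgroup.index_top] at hKi
    exact hpp.one_lt.ne hKi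
  have hNΦ := hthree Φ₁ hΦn hΦN hΦne
  have hexp : ∀ x ∈ N₁, ∀ y ∈ N₁, ⁅x, y⁆ ^ p = 1 := by
    intro x hx y hy
    have hpc : x ^ p * y = y * x ^ p := by
      have hmem : x ^ p ∈ Φ₁ := Subgroup.subset_closure ⟨x, hx, rfl⟩
      have h1 : ⁅y, x ^ p⁆ ∈ ⁅N₁, Φ₁⁆ := Subgroup.commutator_mem_commutator hy hmem
      rw [hNΦ, Subgroup.mem_bot, commutatorElement_eq_one_iff_mul_comm] at h1
      exact h1.symm
    set c := ⁅x, y⁆ with hc
    have hcU : c ∈ U₁ := hNN (Subgroup.commutator_mem_commutator hx hy)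
    have hcx : x * c = c * x := hNU' x hx c hcU
    have h2 := Cfsg.Agent.Lib.OddLocal.pow_conj_eq x y c
      (by rw [hcx, mul_inv_cancel_right]) (by rw [hc, commutatorElement_def]; group) p
    have h3 : x ^ p * y * (x ^ p)⁻¹ = y := by
      rw [hpc, mul_inv_cancel_right]
    rw [h3] at h2
    have h4 : c ^ p * y = y := h2.symm
    exact mul_eq_right.mp h4
  -- all members of `MaxEA` contain `N₁'`
  have hNA : ∀ A ∈ MaxEA p (S : Subgroup G), ⁅N₁, N₁⁆ ≤ A := by
    intro A hA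
    rw [Subgroup.commutator_le]
    intro x hx y hy
    have hz := hNZ x hx y hy
    apply mem_of_MaxEA hA (hZS hz) (hexp x hx y hy)
    intro a ha
    exact ((mem_centerThompsonOf.mp hz).2 a (le_thompsonSubgroupOf hA ha)).symm
  -- the choice of `A`
  obtain ⟨A, hA, hAmax⟩ := Set.exists_max_image (MaxEA p (S : Subgroup G))
    (fun A => Nat.card (A ⊓ N₁ : Subgroup G)) (Set.toFinite _) (MaxEA_nonempty p _)
  by_cases hnorm : N₁ ≤ normalizer (A : Set G)
  · rcases zj_main_lemma hp hodd S IH N₁ hN₁p with h | h | h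
    · exact hZn h
    · exact hN₁c h
    · exact hno A hA (h A hA hnorm)
  · obtain ⟨A', h1, h2, h3, h4, -⟩ := replacement_in_S hp S.isPGroup' hA.1 ((hN₁V.trans hVT).trans hTS) hA.2.1
      hclass (hNA A hA) (by
        rw [Subgroup.normalizer_eq_top_iff.mpr hN₁n']
        exact le_top) hnorm
    have hA' : A' ∈ MaxEA p (S : Subgroup G) :=
      ⟨h1, h2, fun B hB1 hB2 => by rw [h3]; exact hA.2.2 B hB1 hB2⟩
    have := hAmax A' hA'
    omega

/-- Glauberman's **`ZJ`-theorem**, `O_{p'}(G) = 1`. -/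
theorem zj_core (hp : p ≠ 2) : ∀ (n : ℕ) (G : Type u) [Group G] [Finite G] [Group.IsSolvable G],
    Nat.card G = n → Odd (Nat.card G) → pPrimeCore p G = ⊥ → ∀ S : Sylow p G, (Zf (cJ p) (S : Subgroup G)).Normal := by
  classical
  intro n
  induction n using Nat.strong_induction_on with
  | _ n IH =>
    intro G _ _ _ hn hodd hO S
    have hT : pCore p G ≤ (S : Subgroup G) := Basic.pCore_le_sylow S
    have IH' : ∀ K : Subgroup G, (S : Subgroup G) ≤ K → K ≠ ⊤ →
        K ≤ normalizer (centerThompsonOf p (S : Subgroup G) : Set G) := by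
      intro K hSK hK
      have hcard : Nat.card K < n := by
        rw [← hn]
        have h4 : Nat.card K ≠ Nat.card G := by
          intro e
          apply hK
          exact Subgroup.eq_top_of_card_eq K e
        exact lt_of_le_of_ne (Subgroup.card_le_card_group K) h4
      have hMn := IH _ hcard K rfl (Odd.of_dvd_nat hodd (Subgroup.card_subgroup_dvd_card K))
        (pPrimeCore_overgroup_eq_bot hO K (hT.trans hSK)) (S.subtype hSK)
      rw [← Zf_cJ]
      exact le_normalizer_Zf (cJ_isoInv p) K (S : Subgroup G) hSK hMn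
    rw [Zf_cJ]
    by_cases hex : ∃ A₀ ∈ MaxEA p (S : Subgroup G), A₀ ≤ pCore p G
    · obtain ⟨A₀, hA₀, hA₀T⟩ := hex
      exact zj_case_one hp hodd hO S IH' A₀ hA₀ hA₀T
    · push Not at hex
      exact zj_case_two hp hodd hO S IH' hex

end main

end Cfsg.Agent.Lib.OddLocal
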