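import Cfsg.Agent.Lib.OddLocal.Thompson

/-!
Glauberman's `ZJ`-theorem for solvable groups of odd order (elementary abelian version of the Thompson subgroup).
-/

set_option autoImplicit false
set_option linter.unusedSectionVars false
set_option linter.style.haveILetI false

namespace Cfsg.Agent.Lib.OddLocal

open Subgroup Cfsg Cfsg.Agent.Lib.LocalEven

open scoped commutatorElement

universe u

variable {G : Type u} [Group G]

theorem S_le_normalizer_Zf {𝔣 : ∀ (P : Type u) [Group P], Subgroup P} (h𝔣 : IsIsoInv 𝔣) [Finite G] (S : Subgroup G) :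
    S ≤ normalizer (Zf 𝔣 S : Set G) := by
  intro s hs
  apply Cfsg.Agent.Lib.Coprime.mem_normalizer_of_conj_le
  rintro _ ⟨x, hx, rfl⟩
  have h1 := h𝔣 S S (MulAut.conj (⟨s, hs⟩ : S))
  have h2 : (MulAut.conj (⟨s, hs⟩ : S)) x ∈ 𝔣 S := by
    rw [← h1]
    exact ⟨x, hx, rfl⟩
  exact ⟨_, h2, by simp⟩

theorem normal_of_residual_le_centralizer [Finite G] {p : ℕ} [Fact p.Prime] (S : Sylow p G) (Z : Subgroup G)
    (hS : (S : Subgroup G) ≤ normalizer (Z : Set G)) (h : pResidual p G ≤ centralizer (Z : Set G)) : Z.Normal := by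
  rw [← Subgroup.normalizer_eq_top_iff, eq_top_iff, ← pResidual_sup_sylow (p := p) S]
  refine sup_le ?_ hS
  intro c hc
  apply Cfsg.Agent.Lib.Coprime.mem_normalizer_of_conj_le
  intro z hz
  have : c * z * c⁻¹ = z := by
    rw [(Subgroup.mem_centralizer_iff.mp (h hc) z hz).symm, mul_inv_cancel_right]
  rw [this]
  exact hz

/-- If `C ⊔ S = ⊤` for a normal subgroup `C`, then `O^p(G) ≤ C`. -/
theorem residual_le_of_sup_sylow [Finite G] {p : ℕ} [Fact p.Prime] (S : Sylow p G) (C : Subgroup G) [hC : C.Normal]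
    (h : C ⊔ (S : Subgroup G) = ⊤) : pResidual p G ≤ C := by
  apply pResidual_le_of_quotient_isPGroup
  intro x
  induction x using QuotientGroup.induction_on with
  | H g =>
    have hg : g ∈ C ⊔ (S : Subgroup G) := h ▸ Subgroup.mem_top g
    obtain ⟨c, hc, s, hs, rfl⟩ := Subgroup.mem_sup_of_normal_left.mp hg
    obtain ⟨k, hk⟩ := S.isPGroup' ⟨s, hs⟩
    refine ⟨k, ?_⟩
    have h1 : s ^ (p ^ k) = 1 := congrArg Subtype.val hk
    rw [QuotientGroup.mk_mul, (QuotientGroup.eq_one_iff c).mpr hc, one_mul, ← QuotientGroup.mk_pow, h1]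
    rfl

/-- `⁅N, V⁆ = N` forces `N = ⊥` when `N ≤ V`, `V` a `p`-group. -/
theorem eq_bot_of_commutator_eq {p : ℕ} [Fact p.Prime] [Finite G] {N V : Subgroup G} (hV : IsPGroup p V) (hNV : N ≤ V)
    (h : ⁅N, V⁆ = N) : N = ⊥ := by
  haveI hnil : Group.IsNilpotent V := hV.isNilpotent
  obtain ⟨n, hn⟩ := Subgroup.nilpotent_iff_lowerCentralSeries.mp hnil
  have hkey : ∀ k : ℕ, N.subgroupOf V ≤ (⊤ : Subgroup V).lowerCentralSeries k := by
    intro k
    induction k with
    | zero =>
      intro x _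
      exact Subgroup.mem_top x
    | succ k ih =>
      intro x hx
      have hx' : (x : G) ∈ ⁅N, V⁆ := by
        rw [h]
        exact hx
      have hmap : (⁅N.subgroupOf V, (⊤ : Subgroup V)⁆).map V.subtype = ⁅N, V⁆ := by
        rw [Subgroup.map_commutator, Subgroup.subgroupOf_map_subtype, inf_eq_left.mpr hNV,
          ← MonoidHom.range_eq_map, Subgroup.range_subtype]
      rw [← hmap] at hx'
      obtain ⟨y, hy, hyx⟩ := hx'
      have hxy : y = x := Subtype.ext hyx
      rw [← hxy]
      exact (Subgroup.commutator_mono ih le_rfl) hy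
  have h1 := hkey n
  rw [hn, le_bot_iff, Subgroup.subgroupOf_eq_bot, disjoint_iff, inf_eq_left.mpr hNV] at h1
  exact h1

section main

variable [Finite G] [Group.IsSolvable G] {p : ℕ} [Fact p.Prime]

/-- The centre of `J` normalized by `S`, abelian, contained in `O_p`. -/
theorem centerThompson_props (hp : p ≠ 2) (hodd : Odd (Nat.card G)) (hO : pPrimeCore p G = ⊥) (S : Sylow p G) :
    IsMulCommutative (centerThompsonOf p (S : Subgroup G)) ∧
      (S : Subgroup G) ≤ normalizer (centerThompsonOf p (S : Subgroup G) : Set G) ∧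
      centerThompsonOf p (S : Subgroup G) ≤ (S : Subgroup G) ∧
      centerThompsonOf p (S : Subgroup G) ≤ pCore p G := by
  classical
  set Z := centerThompsonOf p (S : Subgroup G) with hZ
  have hZc : IsMulCommutative Z := by
    refine ⟨⟨?_⟩⟩
    rintro ⟨a, ha⟩ ⟨b, hb⟩
    apply Subtype.ext
    exact (mem_centerThompsonOf.mp hb).2 a (mem_centerThompsonOf.mp ha).1
  have hSN : (S : Subgroup G) ≤ normalizer (Z : Set G) := by
    rw [hZ, ← Zf_cJ]
    exact S_le_normalizer_Zf (cJ_isoInv p) _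
  have hZS : Z ≤ (S : Subgroup G) := by
    rw [hZ, ← Zf_cJ]
    exact Zf_le _ _
  refine ⟨hZc, hSN, hZS, ?_⟩
  have hTn : (pCore p G).Normal := Basic.pCore_normal p
  have hTp : IsPGroup p (pCore p G) := Basic.pCore_isPGroup p
  have hTS : pCore p G ≤ (S : Subgroup G) := Basic.pCore_le_sylow S
  have h := (Cfsg.Agent.S1465.result hodd p hp (pCore p G) hTp {Z} (by
    rintro B rfl
    exact ⟨hZc, S.isPGroup'.to_le hZS, hTS.trans hSN⟩)).2 hO inf_le_left
  rwa [sSup_singleton] at h

/-- The **main lemma** of the `ZJ`-theorem. -/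
theorem zj_main_lemma (hp : p ≠ 2) (hodd : Odd (Nat.card G)) (S : Sylow p G)
    (IH : ∀ K : Subgroup G, (S : Subgroup G) ≤ K → K ≠ ⊤ → K ≤ normalizer (centerThompsonOf p (S : Subgroup G) : Set G))
    (N : Subgroup G) [hNn : N.Normal] (hN : IsPGroup p N) :
    (centerThompsonOf p (S : Subgroup G)).Normal ∨ pResidual p G ≤ centralizer (N : Set G) ∨
      ∀ A ∈ MaxEA p (S : Subgroup G), N ≤ normalizer (A : Set G) → A ≤ pCore p G := by
  classical
  set Z := centerThompsonOf p (S : Subgroup G) with hZ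
  obtain ⟨D, hDn, hTD, hAD, hfrat⟩ := quad_frattini hp hodd N hN S
  set Q := (S : Subgroup G) ⊓ D with hQ
  set M := normalizer (Q : Set G) with hM
  by_cases hMtop : M = ⊤
  · right
    right
    intro A hA hNA
    have hQn : Q.Normal := Subgroup.normalizer_eq_top_iff.mp hMtop
    have hQp : IsPGroup p Q := S.isPGroup'.to_le inf_le_left
    have hQT : Q ≤ pCore p G := Basic.le_pCore hQn hQp
    apply le_trans _ hQT
    refine le_inf hA.1 (hAD A (S.isPGroup'.to_le hA.1) ?_)
    intro a ha w hw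
    have h4 : w * a * w⁻¹ ∈ A := (Subgroup.mem_normalizer_iff.mp (hNA hw) a).mp ha
    have h5 : ⁅w, a⁆ ∈ A := A.mul_mem h4 (A.inv_mem ha)
    have h6 := hA.2.1.1.is_comm.comm (⟨⁅w, a⁆, h5⟩ : A) ⟨a, ha⟩
    have h7 := congrArg Subtype.val h6
    exact h7
  · have hSM : (S : Subgroup G) ≤ M := by
      intro s hs
      apply Cfsg.Agent.Lib.Coprime.mem_normalizer_of_conj_le
      rintro x ⟨hxS, hxD⟩
      exact ⟨Subgroup.mul_mem _ (Subgroup.mul_mem _ hs hxS) (Subgroup.inv_mem _ hs), hDn.conj_mem x hxD s⟩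
    have hM1 := IH M hSM hMtop
    set C := centralizer (N : Set G) with hC
    haveI hCn : C.Normal := inferInstance
    by_cases hL : C ⊔ (S : Subgroup G) = ⊤
    · right
      left
      exact residual_le_of_sup_sylow S C hL
    · left
      have h1 := IH _ (le_sup_right : (S : Subgroup G) ≤ C ⊔ (S : Subgroup G)) hL
      rw [← Subgroup.normalizer_eq_top_iff, eq_top_iff, ← hfrat]
      exact sup_le hM1 (le_sup_left.trans h1)

/-- Case I: some member of `MaxEA` lies in `O_p`. -/
theorem zj_case_one (hp : p ≠ 2) (hodd : Odd (Nat.card G)) (hO : pPrimeCore p G = ⊥) (S : Sylow p G)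
    (IH : ∀ K : Subgroup G, (S : Subgroup G) ≤ K → K ≠ ⊤ → K ≤ normalizer (centerThompsonOf p (S : Subgroup G) : Set G))
    (A₀ : Subgroup G) (hA₀ : A₀ ∈ MaxEA p (S : Subgroup G)) (hA₀T : A₀ ≤ pCore p G) :
    (centerThompsonOf p (S : Subgroup G)).Normal := by
  classical
  obtain ⟨hZc, hSN, hZS, hZT⟩ := centerThompson_props hp hodd hO S
  set Z := centerThompsonOf p (S : Subgroup G) with hZ
  set T := pCore p G with hTdef
  haveI hTn : T.Normal := Basic.pCore_normal p
  have hTp : IsPGroup p T := Basic.pCore_isPGroup p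
  have hTS : T ≤ (S : Subgroup G) := Basic.pCore_le_sylow S
  -- comparing `MaxEA`
  have hmax1 : ∀ A ∈ MaxEA p T, A ∈ MaxEA p (S : Subgroup G) := by
    rintro A ⟨hAT, hAe, hAm⟩
    refine ⟨hAT.trans hTS, hAe, ?_⟩
    intro B hBS hBe
    exact (hA₀.2.2 B hBS hBe).trans (hAm A₀ hA₀T hA₀.2.1)
  have hmax2 : ∀ A ∈ MaxEA p (S : Subgroup G), A ≤ T → A ∈ MaxEA p T := by
    rintro A ⟨_, hAe, hAm⟩ hAT
    exact ⟨hAT, hAe, fun B hBT hBe => hAm B (hBT.trans hTS) hBe⟩
  -- normality
  set Jh := thompsonSubgroupOf p T with hJh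
  have hJhn : Jh.Normal := by
    have h1 : IsIsoInv.{u} (thompsonSubgroup p) := by
      intro P P' _ _ _ _ e
      exact thompsonSubgroup_map_equiv e
    exact Zf_normal h1 T
  set W := centerThompsonOf p T with hW
  haveI hWn : W.Normal := by
    rw [hW, ← Zf_cJ]
    exact Zf_normal (cJ_isoInv p) T
  haveI hWc : IsMulCommutative W := by
    refine ⟨⟨?_⟩⟩
    rintro ⟨a, ha⟩ ⟨b, hb⟩
    apply Subtype.ext
    exact (mem_centerThompsonOf.mp hb).2 a (mem_centerThompsonOf.mp ha).1
  have hWT : W ≤ T := by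
    rw [hW, ← Zf_cJ]
    exact Zf_le _ _
  set Ω := Cfsg.Agent.Lib.Basic.torsionSubgroupOf W p with hΩ
  haveI hΩn : Ω.Normal := Cfsg.Agent.Lib.Basic.torsionSubgroupOf_normal p
  have hΩW : Ω ≤ W := fun x hx => hx.1
  have hΩp : IsPGroup p Ω := hTp.to_le (hΩW.trans hWT)
  have hΩA : ∀ A ∈ MaxEA p T, Ω ≤ A := by
    intro A hA w hw
    apply mem_of_MaxEA hA (hWT hw.1) hw.2
    intro a ha
    exact ((mem_centerThompsonOf.mp hw.1).2 a (le_thompsonSubgroupOf hA ha)).symm
  rcases zj_main_lemma hp hodd S IH Ω hΩp with h | h | h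
  · exact h
  · -- the `p'`-elements centralize `Z`
    apply normal_of_residual_le_centralizer S Z hSN
    delta pResidual
    rw [Subgroup.closure_le]
    intro y hy
    have hyres : y ∈ pResidual p G := mem_pResidual_of_coprime hy
    rw [SetLike.mem_coe, Subgroup.mem_centralizer_iff]
    intro z hz
    let Y : Subgroup G := T ⊓ centralizer (Jh : Set G)
    haveI hYn : Y.Normal := inferInstance
    have hYp : IsPGroup p Y := hTp.to_le inf_le_left
    have hfix := fix_of_fix_omega p hp y hy Y hYp (fun x hx => hYn.conj_mem x hx y) (by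
      rintro x ⟨hxT, hxC⟩ hxp
      obtain ⟨A, hA⟩ := MaxEA_nonempty p T
      have hxA : x ∈ A := mem_of_MaxEA hA hxT hxp (by
        intro a ha
        exact (Subgroup.mem_centralizer_iff.mp hxC a (le_thompsonSubgroupOf hA ha)).symm)
      have hxJ : x ∈ Jh := le_thompsonSubgroupOf hA hxA
      have hxΩ : x ∈ Ω := ⟨⟨hxJ, hxC⟩, hxp⟩
      have := Subgroup.mem_centralizer_iff.mp (h hyres) x hxΩ
      rw [← this, mul_inv_cancel_right])
    have hzY : z ∈ Y := by
      refine ⟨hZT hz, ?_⟩
      refine Subgroup.mem_centralizer_iff.mpr ?_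
      intro j hj
      have hJle : Jh ≤ thompsonSubgroupOf p (S : Subgroup G) := by
        rw [hJh, thompsonSubgroupOf_eq, thompsonSubgroupOf_eq]
        exact sSup_le_sSup hmax1
      exact (mem_centerThompsonOf.mp hz).2 j (hJle hj)
    have := hfix z hzY
    rw [mul_inv_eq_iff_eq_mul] at this
    exact this.symm
  · -- all members contain `Ω`
    have hall : ∀ n : ℕ, ∀ A ∈ MaxEA p (S : Subgroup G), Nat.card Ω - Nat.card (A ⊓ Ω : Subgroup G) = n → Ω ≤ A := by
      intro n
      induction n using Nat.strong_induction_on with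
      | _ n ih =>
        intro A hA hn
        by_cases hN : Ω ≤ normalizer (A : Set G)
        · exact hΩA A (hmax2 A hA (h A hA hN))
        · exfalso
          have hΩc : ⁅Ω, Ω⁆ = ⊥ := by
            rw [Subgroup.commutator_eq_bot_iff_le_centralizer]
            intro a ha
            refine Subgroup.mem_centralizer_iff.mpr ?_
            intro b hb
            have := hWc.is_comm.comm (⟨a, hΩW ha⟩ : W) ⟨b, hΩW hb⟩
            exact (congrArg Subtype.val this).symm
          obtain ⟨A', h1, h2, h3, h4, h5⟩ := replacement_in_S hp S.isPGroup' hA.1 ((hΩW.trans hWT).trans hTS) hA.2.1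
            (by rw [hΩc]; exact Subgroup.commutator_bot_left _) (by rw [hΩc]; exact bot_le)
            (by
              rw [Subgroup.normalizer_eq_top_iff.mpr hΩn]
              exact le_top) hN
          have hA' : A' ∈ MaxEA p (S : Subgroup G) :=
            ⟨h1, h2, fun B hB1 hB2 => by rw [h3]; exact hA.2.2 B hB1 hB2⟩
          have hle : Nat.card (A' ⊓ Ω : Subgroup G) ≤ Nat.card Ω := Subgroup.card_le_of_le inf_le_right
          have hΩA' := ih _ (by omega) A' hA' rfl
          exact hN (hΩA'.trans h5)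
    have hall' : ∀ A ∈ MaxEA p (S : Subgroup G), A ∈ MaxEA p T := by
      intro A hA
      have h1 := hall _ A hA rfl
      exact hmax2 A hA (h A hA (h1.trans Subgroup.le_normalizer))
    have hJeq : thompsonSubgroupOf p (S : Subgroup G) = Jh := by
      rw [hJh, thompsonSubgroupOf_eq, thompsonSubgroupOf_eq]
      congr 1
      ext A
      exact ⟨hall' A, hmax1 A⟩
    have hZW : Z = W := by
      rw [hZ, hW, centerThompsonOf, centerThompsonOf, hJeq]
    rw [hZW]
    exact hWn

end main

end Cfsg.Agent.Lib.OddLocal
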